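import Mathlib
import Cfsg.Agent.H602.Small.Fus
import Cfsg.Agent.H613.CycFus_mg
import Cfsg.Agent.S4686
import Cfsg.Agent.S5083
import Cfsg.Agent.S5088
import Cfsg.Agent.H753.CentStrong
set_option linter.all false

/-!
# Nilpotent blocks: a central element with abelian quotient (helper604, S4542 package F4)

* `isNilpotentBlock_of_central`: a block with defect group `D` of a group `H` is nilpotent if some `w ∈ D` is
  central in `H`, `D / ⟨w⟩` is abelian and the automorphisms of `D` fixing `w` have `p`-power order;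
* `rank_bel_of_aut`: `l(b_z) = 1` for `z` central in `a.1` under these conditions.
-/

set_option autoImplicit false
set_option linter.unusedSectionVars false

open Cfsg
open scoped ComplexConjugate

namespace Cfsg.Agent.H604.Small.NilBel

open Cfsg.Agent.Blocks.Blau Cfsg.Agent.Blocks.Local Cfsg.Agent.Characters
open Cfsg.Agent.H613.SubSys Cfsg.Agent.H613.SubFus
open Cfsg.Agent.H639 Cfsg.Agent.H649 Cfsg.Agent.H651

universe u

variable {H : Type u} [Group H] [Finite H] {p : ℕ} [Fact p.Prime] {M : Ideal AlgInt}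

/-- `f` restricted to `D` is an injective endomorphism -/
structure Endo (D : Subgroup H) (f : H → H) : Prop where
  mem : ∀ x ∈ D, f x ∈ D
  mul : ∀ x ∈ D, ∀ y ∈ D, f (x * y) = f x * f y
  inj : ∀ x ∈ D, ∀ y ∈ D, f x = f y → x = y

omit [Finite H] in
theorem Endo.iterate {D : Subgroup H} {f : H → H} (h : Endo D f) (n : ℕ) : ∀ x ∈ D, f^[n] x ∈ D := by
  induction n with
  | zero => exact fun x hx => hx
  | succ n ih => exact fun x hx => by rw [Function.iterate_succ_apply']; exact h.mem _ (ih x hx)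

theorem isNilpotentBlock_of_central (hM : IsPModular p M) {b : Set (IrrCharacter H)}
    (hb : IsPBlock M b) {D : Subgroup H} (hD : IsDefectGroup p M b D) {w : H} (hwD : w ∈ D)
    (hwc : ∀ g : H, g * w = w * g)
    (hab : ∀ x ∈ D, ∀ y ∈ D, x * y * x⁻¹ * y⁻¹ ∈ Subgroup.zpowers w)
    (haut : ∀ f : H → H, Endo D f → f w = w → ∃ k : ℕ, ∀ x ∈ D, f^[p ^ k] x = x) :
    IsNilpotentBlock p M b := by
  have := Fintype.ofFinite H
  have := isPrime_of_isPModular hM
  obtain ⟨e, he⟩ := H649.exists_pair_of_isDefectGroup hM hb hD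
  have hmax := H644.isMaximalBrauerPair_of_isDefectGroup hM he hD
  obtain ⟨F, hF, hsat⟩ := S4677.result p M hM b D e hmax
  have hDp : IsPGroup p D := Cfsg.Agent.Blocks.Basic.isPGroup_of_isDefectGroup hD
  refine (S4686.result p M hM b D e hmax F hF).2 fun Q => ?_
  have hwc' : ∀ (g x : H), x ∈ Subgroup.zpowers w → g * x * g⁻¹ = x := by
    rintro g _ ⟨k, rfl⟩
    have h1 : Commute g w := hwc g
    have h2 : g * w ^ k = w ^ k * g := (h1.zpow_right k)
    show g * w ^ k * g⁻¹ = w ^ k
    rw [h2, mul_inv_cancel_right]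
  have hfix : ∀ (Q : Subgroup H) (φ : Q →* H), φ ∈ F.Hom Q → ∀ x : Q, (x : H) ∈ Subgroup.zpowers w →
      φ x = x := by
    intro Q φ hφ x hx
    obtain ⟨-, g, hg, -⟩ := (hF.2 Q φ).1 hφ
    rw [hg x, hwc' g x hx]
  have hwD' : Subgroup.zpowers w ≤ D := Subgroup.zpowers_le.2 hwD
  have hnorm : F.IsNormal D := by
    refine (S5088.result p hDp F hsat D).2 ⟨2, ![⊥, Subgroup.zpowers w, D], rfl, rfl, ?_, ?_⟩
    · rw [Fin.monotone_iff_le_succ]
      intro i
      fin_cases i
      · exact bot_le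
      · exact hwD'
    · intro i
      fin_cases i
      · refine ⟨⟨hwD', fun R hR φ hφ x => ?_⟩, ?_⟩
        · rw [hfix R φ hφ x (hR x.2)]
          exact hR x.2
        · show ⁅D, Subgroup.zpowers w⁆ ≤ ⊥
          rw [Subgroup.commutator_le]
          intro g _ x hx
          rw [Subgroup.mem_bot, commutatorElement_def, hwc' g x hx, mul_inv_cancel]
      · refine ⟨⟨le_rfl, fun R hR φ hφ x => (F.le_of_mem hφ).2 x⟩, ?_⟩
        show ⁅D, D⁆ ≤ Subgroup.zpowers w
        rw [Subgroup.commutator_le]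
        intro x hx y hy
        rw [commutatorElement_def]
        exact hab x hx y hy
  have key : F = innerFusionSystem D := by
    refine S5083.result p hDp F hsat fun Q hQ => ?_
    intro α
    have hφ : Q.subtype.comp (α : MulAut Q).toMonoidHom ∈ F.Hom Q := (H802.mem_autGroup_iff F hQ _).1 α.2
    obtain ⟨ψ, hψ, hψ1, -⟩ := hnorm.2 Q _ hφ
    have hsup : Q ⊔ D = D := sup_eq_right.2 hQ
    let f : H → H := H752.ex ψ
    have hf : H752.Mp F (Q ⊔ D) f := H752.mp_ex hψ
    rw [hsup] at hf
    have hE : Endo D f := ⟨fun x hx => hf.mem hx, fun x hx y hy => hf.mul hx hy,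
      fun x hx y hy h => hf.inj hx hy h⟩
    have hfw : f w = w := by
      obtain ⟨χ, hχ, h1⟩ := hf
      rw [← h1 w hwD]
      exact hfix D χ hχ ⟨w, hwD⟩ (Subgroup.mem_zpowers w)
    obtain ⟨k, hk⟩ := haut f hE hfw
    have hfα : ∀ x : Q, f x = ((α : MulAut Q) x : Q) := by
      intro x
      have h1 := hψ1 x
      have h2 : (x : H) ∈ Q ⊔ D := by rw [hsup]; exact hQ x.2
      show H752.ex ψ x = _
      rw [H752.ex_apply _ h2]
      exact h1
    have hit : ∀ (n : ℕ) (x : Q), f^[n] x = (((α : MulAut Q) ^ n) x : Q) := by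
      intro n
      induction n with
      | zero => exact fun x => rfl
      | succ n ih =>
        intro x
        rw [Function.iterate_succ_apply', ih, hfα, pow_succ', MulAut.mul_apply]
    refine ⟨k, ?_⟩
    apply Subtype.ext
    rw [Subgroup.coe_pow, Subgroup.coe_one]
    ext x
    rw [← hit, hk x (hQ x.2)]
    rfl
  rw [key]

/-- `l(b_z) = 1` for `z` central in `a.1` if `a.1 / ⟨z⟩` is abelian and the automorphisms of `a.1` fixing `z` have
`p`-power order. -/
theorem rank_bel_of_aut (hM : IsPModular p M) {B : Set (IrrCharacter H)} {a : BrauerPairIdx H}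
    (hmax : IsMaximalBrauerPair p M B a.1 a.2) {z : H} (hz : z ∈ a.1) (hzc : ∀ x ∈ a.1, x * z = z * x)
    (hab : ∀ x ∈ a.1, ∀ y ∈ a.1, x * y * x⁻¹ * y⁻¹ ∈ Subgroup.zpowers z)
    (haut : ∀ f : H → H, Endo a.1 f → f z = z → ∃ k : ℕ, ∀ x ∈ a.1, f^[p ^ k] x = x) :
    blockRank p (bel p M a z).2 = 1 := by
  classical
  have hC := H602.Small.le_centralizer_bel (p := p) (M := M) (a := a) hzc
  apply H613.NilRank.rank_one hM
  refine isNilpotentBlock_of_central hM (isPBlock_bel hM hmax.1.1 hz)
    (H602.Small.isDefectGroup_bel_of_central hM hmax hz hzc) (w := ⟨z, hC hz⟩) hz ?_ ?_ ?_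
  · intro g
    apply Subtype.ext
    have h1 : (g : H) ∈ Subgroup.centralizer ((Subgroup.zpowers z : Subgroup H) : Set H) := g.2
    rw [centralizer_zpowers, Subgroup.mem_centralizer_singleton_iff] at h1
    exact h1
  · intro x hx y hy
    obtain ⟨k, hk⟩ := hab x hx y hy
    exact ⟨k, Subtype.ext hk⟩
  · intro f hf hfz
    let f' : H → H := fun x => if hx : x ∈ Subgroup.centralizer ((bel p M a z).1 : Set H) then
      (f ⟨x, hx⟩ : H) else 1
    have hf' : ∀ x ∈ a.1, ∀ hx : x ∈ Subgroup.centralizer ((bel p M a z).1 : Set H),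
        f' x = (f ⟨x, hx⟩ : H) := fun x _ hx => dif_pos hx
    have hE : Endo a.1 f' := by
      refine ⟨fun x hx => ?_, fun x hx y hy => ?_, fun x hx y hy h => ?_⟩
      · rw [hf' x hx (hC hx)]
        exact hf.mem ⟨x, hC hx⟩ hx
      · rw [hf' x hx (hC hx), hf' y hy (hC hy), hf' _ (a.1.mul_mem hx hy) (hC (a.1.mul_mem hx hy))]
        exact congrArg Subtype.val (hf.mul ⟨x, hC hx⟩ hx ⟨y, hC hy⟩ hy)
      · rw [hf' x hx (hC hx), hf' y hy (hC hy)] at h
        exact congrArg Subtype.val (hf.inj ⟨x, hC hx⟩ hx ⟨y, hC hy⟩ hy (Subtype.ext h))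
    obtain ⟨k, hk⟩ := haut f' hE (by rw [hf' z hz (hC hz), hfz])
    refine ⟨k, fun x hx => ?_⟩
    have hit : ∀ (n : ℕ) (x : Subgroup.centralizer ((bel p M a z).1 : Set H)), (x : H) ∈ a.1 →
        f'^[n] x = (f^[n] x : H) := by
      intro n
      induction n with
      | zero => exact fun x _ => rfl
      | succ n ih =>
        intro x hx
        have h1 := hf.iterate n x hx
        rw [Function.iterate_succ_apply', Function.iterate_succ_apply', ih x hx]
        exact hf' _ h1 _
    apply Subtype.ext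
    rw [← hit _ x hx]
    exact hk x hx

end Cfsg.Agent.H604.Small.NilBel
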